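import Mathlib
import Cfsg.Agent.Amalg.SpBasic

/-!
The symplectic group is the universal completion of the amalgam of the groups `S_k`, `M_i`.
-/

set_option autoImplicit false

namespace Cfsg.Agent.Amalg

variable {n : ℕ} {F : Type*} [Field F] {H : Type*} [Group H]

/-- Elements of `K` whose image commutes with `y`. -/
def HomOn.commSub {Γ : Type*} [Group Γ] {K : Subgroup Γ} {φ : Γ → H} (h : HomOn K φ) (y : H) :
    Subgroup Γ where
  carrier := {g | g ∈ K ∧ φ g * y = y * φ g}
  mul_mem' {a b} ha hb := ⟨K.mul_mem ha.1 hb.1, by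
    rw [h.map_mul ha.1 hb.1, mul_assoc, hb.2, ← mul_assoc, ha.2, mul_assoc]⟩
  one_mem' := ⟨K.one_mem, by simp [h.map_one]⟩
  inv_mem' {a} ha := ⟨K.inv_mem ha.1, by
    rw [h.map_inv ha.1, inv_mul_eq_iff_eq_mul, ← mul_assoc, ha.2, mul_inv_cancel_right]⟩

/-- Indices from `k` on. -/
def geS (n k : ℕ) : Set (Fin n) := {l | k ≤ (l : ℕ)}

/-- The indices `i`, `i + 1`. -/
def pairS (i : Fin n) : Set (Fin n) := {l | l = i ∨ (l : ℕ) = i + 1}

theorem geS_eq_insert (k : Fin n) : geS n k = insert k (geS n (k + 1)) := by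
  ext l
  simp only [geS, Set.mem_setOf_eq, Set.mem_insert_iff, Fin.ext_iff]
  omega

theorem not_mem_geS (k : Fin n) : k ∉ geS n (k + 1) := by simp [geS]

theorem mem_geS {k : ℕ} {l : Fin n} (h : k ≤ (l : ℕ)) : l ∈ geS n k := h

theorem supp_spe1 (k : Fin n) : Supp {k} (spe k : SpV n F) := supp_spe rfl

theorem supp_spf1 (k : Fin n) : Supp {k} (spf k : SpV n F) := supp_spf rfl

theorem sp_smul_ne_zero (g : SpG n F) {v : SpV n F} (hv : v ≠ 0) : g • v ≠ 0 := by
  intro h
  apply hv
  rw [← inv_smul_smul g v, h, smul_zero]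

theorem geS_mono {k k' : ℕ} (h : k ≤ k') : geS n k' ⊆ geS n k := fun _ hl => h.trans hl

/-- The members of the amalgam. -/
def spA (F : Type*) [Field F] : Fin n ⊕ Fin n → Subgroup (SpG n F) :=
  Sum.elim (fun j => spFix F {j}) (fun i => spM F (pairS i))

/-- The level of a member. -/
def spLev : Fin n ⊕ Fin n → ℕ := Sum.elim Fin.val Fin.val

theorem spA_le {k : ℕ} {a : Fin n ⊕ Fin n} (h : k ≤ spLev a) : spA F a ≤ spFix F (geS n k) := by
  cases a with
  | inl j => exact spFix_mono (by rintro l rfl; exact h)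
  | inr i =>
    refine (spM_le_spFix _).trans (spFix_mono ?_)
    rintro l (rfl | hl)
    · exact h
    · change k ≤ (l : ℕ)
      have : k ≤ (i : ℕ) := h
      omega

theorem spE_zero_mem_M (k : Fin n) (c : F) : spE (spe k) 0 c ∈ spM F (pairS k) :=
  spE_mem_spM (supp_spe (Or.inl rfl)) (Supp.zero _) (by simp) (by simp) c

theorem spE_mem_M {k k' : Fin n} (hk : (k' : ℕ) = k + 1) (t c : F) :
    spE (spe k) (t • spe k') c ∈ spM F (pairS k) :=
  spE_mem_spM (supp_spe (Or.inl rfl)) ((supp_spe (Or.inr hk)).smul t) (by simp) (by simp) c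

theorem sp_stab_le (k : Fin n) (N : Subgroup (SpG n F)) (hM : spM F (pairS k) ≤ N)
    (hG : spFix F (geS n (k + 1)) ≤ N) {p : SpG n F} (hp : p ∈ spFix F (geS n k))
    (hpe : p • (spe k : SpV n F) = spe k) : p ∈ N := by
  rw [geS_eq_insert] at hp
  obtain ⟨u, c, hu, g, hg, rfl⟩ := stab_decomp (not_mem_geS k) hp hpe
  refine N.mul_mem ?_ (hG hg)
  by_cases h0 : u = 0
  · subst h0; exact hM (spE_zero_mem_M k c)
  · have hlt : (k : ℕ) + 1 < n := by
      by_contra hlt
      apply h0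
      ext i
      cases i with
      | inl l => exact (hu l (by simp only [geS, Set.mem_setOf_eq]; omega)).1
      | inr l => exact (hu l (by simp only [geS, Set.mem_setOf_eq]; omega)).2
    let k' : Fin n := ⟨k + 1, hlt⟩
    obtain ⟨g', hg', e⟩ := spFix_trans (supp_spe (mem_geS (l := k') (le_refl _)))
      (spe_ne_zero k') hu h0
    have := spE_conj (e := spe k) (u := (1 : F) • spe k') (by simp) c g'
    rw [(hg' k (not_mem_geS k)).1, sp_smul_smul, e, one_smul F u] at this
    rw [← this]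
    exact N.mul_mem (N.mul_mem (hG hg') (hM (spE_mem_M rfl 1 c))) (N.inv_mem (hG hg'))

theorem exists_S_smul (k : Fin n) (a : F) {b : F} (hb : b ≠ 0) :
    ∃ l ∈ spFix F {k}, l • (spe k : SpV n F) = a • spe k + b • spf k :=
  spFix_trans (supp_spe1 _) (spe_ne_zero k) (((supp_spe1 _).smul a).add ((supp_spf1 _).smul b))
    (fun h => hb (by simpa using congrFun h (Sum.inr k)))

theorem sp_nb (k : Fin n) {y : SpV n F} (hy : Supp (geS n k) y) (h0 : y (Sum.inr k) ≠ 0) :
    ∃ p ∈ spFix F (geS n k), p • (spe k : SpV n F) = spe k ∧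
      ∃ l ∈ spFix F {k}, (p * l) • (spe k : SpV n F) = y := by
  rw [geS_eq_insert] at hy ⊢
  obtain ⟨u, c, hu, h⟩ := exists_spE_smul (not_mem_geS k) hy h0
  obtain ⟨l, hl, e⟩ := exists_S_smul k 0 h0
  refine ⟨_, spE_mem_spFix (supp_spe (Set.mem_insert _ _)) (hu.mono (Set.subset_insert _ _)) c,
    spE_smul_self (by simp [hu k (not_mem_geS k)]) c, l, hl, ?_⟩
  rw [mul_smul, e, zero_smul, zero_add, h]

theorem sp_gen (N : Subgroup (SpG n F)) (k : ℕ) (h : ∀ a, k ≤ spLev a → spA F a ≤ N) :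
    spFix F (geS n k) ≤ N := by
  suffices H : ∀ m k : ℕ, n ≤ k + m → (∀ a, k ≤ spLev a → spA F a ≤ N) →
      spFix F (geS n k) ≤ N from H n k (by omega) h
  intro m
  induction m with
  | zero =>
    intro k hk _ g hg
    have : g = 1 := by
      have hl : ∀ l : Fin n, l ∉ geS n k := fun l => by
        simp only [geS, Set.mem_setOf_eq]; omega
      exact sp_ext_basis (fun l => by simp [hg l (hl l)]) (fun l => by simp [hg l (hl l)])
    rw [this]; exact N.one_mem
  | succ m ih =>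
    intro k hk h
    have hG := ih (k + 1) (by omega) fun a ha => h a (by omega)
    by_cases hkn : n ≤ k
    · exact ih k (by omega) h
    let k0 : Fin n := ⟨k, by omega⟩
    have hM : spM F (pairS k0) ≤ N := h (Sum.inr k0) (le_refl _)
    have hS : spFix F {k0} ≤ N := h (Sum.inl k0) (le_refl _)
    have hSG : spFix F {k0} ≤ spFix F (geS n k) := spA_le (a := Sum.inl k0) (le_refl _)
    have A : ∀ g ∈ spFix F (geS n k), (g • (spe k0 : SpV n F)) (Sum.inr k0) ≠ 0 → g ∈ N := by
      intro g hg h0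
      obtain ⟨p, hp, hp0, l, hl, e⟩ := sp_nb k0 ((supp_spe (mem_geS (le_refl _))).act hg) h0
      have h1 := sp_stab_le k0 N hM hG hp hp0
      have h2 := sp_stab_le k0 N hM hG (p := (p * l)⁻¹ * g) (Subgroup.mul_mem _
        (Subgroup.inv_mem _ (Subgroup.mul_mem _ hp (hSG hl))) hg)
        (by rw [mul_smul, ← e, inv_smul_smul])
      have := N.mul_mem (N.mul_mem h1 (hS hl)) h2
      rwa [mul_inv_cancel_left] at this
    intro g hg
    have he : Supp (geS n k) (spe k0 : SpV n F) := supp_spe (mem_geS (le_refl _))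
    obtain ⟨v, hv, h1, h2⟩ := he.exists_om2 (spe_ne_zero k0) (he.act hg)
      (sp_smul_ne_zero g (spe_ne_zero k0))
    obtain ⟨x, hx, e⟩ := spFix_trans he (spe_ne_zero k0) hv (by rintro rfl; simp at h1)
    have h3 := A x hx (by rw [e]; simpa using h1)
    have h4 := A (x⁻¹ * g) (Subgroup.mul_mem _ (Subgroup.inv_mem _ hx) hg) (by
      rw [← om_spe_left k0 (_ • _), mul_smul, om_smul_right', inv_inv, e]
      exact om_ne_symm h2)
    have := N.mul_mem h3 h4
    rwa [mul_inv_cancel_left] at this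

/-- The pair condition. -/
def SpPairs (α : Fin n ⊕ Fin n → SpG n F → H) : Prop :=
  ∀ a b, ∃ Ψ, HomOn (spA F a ⊔ spA F b) Ψ ∧ (∀ g ∈ spA F a, Ψ g = α a g) ∧
    ∀ g ∈ spA F b, Ψ g = α b g

theorem SpPairs.comm {α : Fin n ⊕ Fin n → SpG n F → H} (hα : SpPairs α) {a b : Fin n ⊕ Fin n}
    {x y : SpG n F} (hx : x ∈ spA F a) (hy : y ∈ spA F b) (h : x * y = y * x) :
    α a x * α b y = α b y * α a x := by
  obtain ⟨Ψ, h1, h2, h3⟩ := hα a b
  rw [← h2 x hx, ← h3 y hy]
  exact h1.comm (Subgroup.mem_sup_left hx) (Subgroup.mem_sup_right hy) h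

theorem SpPairs.agree {α : Fin n ⊕ Fin n → SpG n F → H} (hα : SpPairs α) {a b : Fin n ⊕ Fin n}
    {x : SpG n F} (hx : x ∈ spA F a) (hy : x ∈ spA F b) : α a x = α b x := by
  obtain ⟨Ψ, -, h2, h3⟩ := hα a b
  rw [← h2 x hx, ← h3 x hy]

theorem SpPairs.homOn {α : Fin n ⊕ Fin n → SpG n F → H} (hα : SpPairs α) (a : Fin n ⊕ Fin n) :
    HomOn (spA F a) (α a) := by
  obtain ⟨Ψ, h1, h2, -⟩ := hα a a
  exact (h1.mono le_sup_left).congr fun g hg => (h2 g hg).symm

section Step

variable {α : Fin n ⊕ Fin n → SpG n F → H} (hα : SpPairs α) {k k' : Fin n}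
  (hk : (k' : ℕ) = k + 1) {Φ : SpG n F → H} (hΦ : HomOn (spFix F (geS n (k + 1))) Φ)
  (hag : ∀ a, (k : ℕ) + 1 ≤ spLev a → ∀ g ∈ spA F a, Φ g = α a g)
include hα hΦ hag

theorem sp_comm_S {l g : SpG n F} (hl : l ∈ spFix F {k}) (hg : g ∈ spFix F (geS n (k + 1))) :
    Φ g * α (Sum.inl k) l = α (Sum.inl k) l * Φ g := by
  refine (sp_gen (hΦ.commSub (α (Sum.inl k) l)) (k + 1) (fun a ha x hx => ⟨spA_le ha hx, ?_⟩) hg).2
  rw [hag a ha x hx]
  exact hα.comm hx hl (spFix_comm (by simp [not_mem_geS]) (spA_le ha hx) hl)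

include hk

theorem sp_comm_M (t c : F) {g : SpG n F} (hg : g ∈ spFix F (geS n (k + 1)))
    (hge : g • (spe k' : SpV n F) = spe k') :
    Φ g * α (Sum.inr k) (spE (spe k) (t • spe k') c) =
      α (Sum.inr k) (spE (spe k) (t • spe k') c) * Φ g := by
  have key : ∀ a, (k : ℕ) + 1 ≤ spLev a → ∀ x ∈ spA F a, x • (spe k' : SpV n F) = spe k' →
      x ∈ hΦ.commSub (α (Sum.inr k) (spE (spe k) (t • spe k') c)) := by
    intro a ha x hx hxe
    refine ⟨spA_le ha hx, ?_⟩
    rw [hag a ha x hx]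
    refine hα.comm hx (spE_mem_M hk t c) ?_
    have := spE_conj (e := spe k) (u := t • spe k') (by simp) c x
    rw [(spA_le ha hx k (not_mem_geS k)).1, sp_smul_smul, hxe] at this
    exact mul_inv_eq_iff_eq_mul.1 this
  refine (sp_stab_le k' (hΦ.commSub _) (fun x hx => key (Sum.inr k') hk.ge x hx (hx.1 k'))
    (sp_gen _ _ fun a ha x hx => key a (by omega) x hx (spA_le ha hx k' (not_mem_geS k')).1)
    (hk ▸ hg) hge).2

theorem sp_heis (hF : ∃ a : F, a ≠ 0 ∧ a ≠ 1) : ∃ y : SpV n F → F → H,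
    (∀ u, Supp (geS n (k + 1)) u → ∀ c, ∀ g ∈ spFix F (geS n (k + 1)),
      Φ g * y u c * (Φ g)⁻¹ = y (g • u) c) ∧
    (∀ u, Supp (geS n (k + 1)) u → ∀ u', Supp (geS n (k + 1)) u' → ∀ c c',
      y u c * y u' c' = y (u + u') (c + c' + om u' u)) ∧
    ∀ t c : F, y (t • spe k') c = α (Sum.inr k) (spE (spe k) (t • spe k') c) := by
  classical
  have hk' : k' ∈ geS n (k + 1) := hk.ge
  have he' : Supp (geS n (k + 1)) (spe k' : SpV n F) := supp_spe hk'
  have hom : ∀ {u : SpV n F}, Supp (geS n (k + 1)) u → om (spe k) u = 0 := fun hu => by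
    simp [hu k (not_mem_geS k)]
  have htr : ∀ u : SpV n F, Supp (geS n (k + 1)) u → u ≠ 0 →
      ∃ g ∈ spFix F (geS n (k + 1)), g • (spe k' : SpV n F) = u :=
    fun u hu h0 => spFix_trans he' (spe_ne_zero k') hu h0
  have htr' := htr
  choose! s hs hs' using htr'
  set m : F → H := fun c => α (Sum.inr k) (spE (spe k) ((1 : F) • spe k') c) with hm
  let y : SpV n F → F → H := fun u c =>
    if u = 0 then α (Sum.inr k) (spE (spe k) 0 c) else Φ (s u) * m c * (Φ (s u))⁻¹
  have y0 : ∀ c, y 0 c = α (Sum.inr k) (spE (spe k) 0 c) := fun c => by simp [y]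
  have y1 : ∀ g ∈ spFix F (geS n (k + 1)), ∀ c, y (g • spe k') c = Φ g * m c * (Φ g)⁻¹ := by
    intro g hg c
    have h0 : g • (spe k' : SpV n F) ≠ 0 := sp_smul_ne_zero g (spe_ne_zero k')
    have hu := he'.act hg
    simp only [y, if_neg h0]
    have h1 := hs _ hu h0
    have h2 := hs' _ hu h0
    generalize s (g • (spe k' : SpV n F)) = x at h1 h2
    have := sp_comm_M hα hk hΦ hag 1 c (g := g⁻¹ * x)
      (Subgroup.mul_mem _ (Subgroup.inv_mem _ hg) h1) (by rw [mul_smul, h2, inv_smul_smul])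
    rw [hΦ.map_mul (Subgroup.inv_mem _ hg) h1, hΦ.map_inv hg] at this
    change _ * m c = m c * _ at this
    calc _ = Φ g * ((Φ g)⁻¹ * Φ x * m c) * (Φ x)⁻¹ := by group
      _ = _ := by rw [this]; group
  have yc : ∀ u, Supp (geS n (k + 1)) u → ∀ c, ∀ g ∈ spFix F (geS n (k + 1)),
      Φ g * y u c * (Φ g)⁻¹ = y (g • u) c := by
    intro u hu c g hg
    by_cases h0 : u = 0
    · subst h0
      have hS : spE (spe k) 0 c ∈ spFix F {k} := spE_mem_spFix (supp_spe1 _) (Supp.zero _) c
      rw [smul_zero, y0, hα.agree (a := Sum.inr k) (b := Sum.inl k) (spE_zero_mem_M k c) hS,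
        sp_comm_S hα hΦ hag hS hg, mul_inv_cancel_right]
    · obtain ⟨x, hx, rfl⟩ := htr u hu h0
      rw [← mul_smul, y1 _ hx, y1 _ (Subgroup.mul_mem _ hg hx), hΦ.map_mul hg hx]
      group
  clear_value y
  obtain ⟨Ψ, hΨ, hΨM, hΨS⟩ := hα (Sum.inr k) (Sum.inl k')
  have hsub : ({k'} : Set (Fin n)) ⊆ geS n (k + 1) := by rintro l rfl; exact hk'
  have yP : ∀ u : SpV n F, Supp {k'} u → ∀ c,
      spE (spe k) u c ∈ spA F (Sum.inr k) ⊔ spA F (Sum.inl k') ∧ y u c = Ψ (spE (spe k) u c) := by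
    intro u hu c
    by_cases h0 : u = 0
    · subst h0
      exact ⟨Subgroup.mem_sup_left (spE_zero_mem_M k c), by rw [y0, hΨM _ (spE_zero_mem_M k c)]⟩
    · obtain ⟨x, hx, rfl⟩ := spFix_trans (supp_spe1 _) (spe_ne_zero k') hu h0
      have hx' := spFix_mono hsub hx
      have := spE_conj (e := spe k) (u := (1 : F) • spe k') (by simp) c x
      rw [(hx' k (not_mem_geS k)).1, sp_smul_smul, one_smul F (x • _)] at this
      have m1 : x ∈ spA F (Sum.inr k) ⊔ spA F (Sum.inl k') := Subgroup.mem_sup_right hx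
      have m2 : spE (spe k) ((1 : F) • spe k') c ∈ spA F (Sum.inr k) ⊔ spA F (Sum.inl k') :=
        Subgroup.mem_sup_left (spE_mem_M hk 1 c)
      rw [← this]
      refine ⟨Subgroup.mul_mem _ (Subgroup.mul_mem _ m1 m2) (Subgroup.inv_mem _ m1), ?_⟩
      rw [y1 x hx', hΨ.map_conj m1 m2, hΨS x hx, hΨM _ (spE_mem_M hk 1 c),
        hag (Sum.inl k') hk.ge x hx]
  let Rel : SpV n F → SpV n F → Prop := fun u u' =>
    ∀ c c', y u c * y u' c' = y (u + u') (c + c' + om u' u)
  have rP : ∀ u u' : SpV n F, Supp {k'} u → Supp {k'} u' → Rel u u' := by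
    intro u u' hu hu' c c'
    rw [(yP u hu c).2, (yP u' hu' c').2, (yP _ (hu.add hu') _).2,
      ← hΨ.map_mul (yP u hu c).1 (yP u' hu' c').1,
      spE_mul (hom (hu.mono hsub)) (hom (hu'.mono hsub))]
  have rG : ∀ u u' : SpV n F, Supp {k'} u → Supp {k'} u' → ∀ g ∈ spFix F (geS n (k + 1)),
      Rel (g • u) (g • u') := by
    intro u u' hu hu' g hg c c'
    rw [← smul_add, om_smul_smul, ← yc _ (hu.mono hsub) _ g hg, ← yc _ (hu'.mono hsub) _ g hg,
      ← yc _ ((hu.add hu').mono hsub) _ g hg, ← rP u u' hu hu']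
    group
  have rN : ∀ u u' : SpV n F, Supp (geS n (k + 1)) u → Supp (geS n (k + 1)) u' → om u u' ≠ 0 →
      Rel u u' := by
    intro u u' hu hu' h0
    obtain ⟨x, hx, rfl⟩ := htr u hu (by rintro rfl; simp at h0)
    have h1 : Supp (geS n k') (x⁻¹ • u') := hk ▸ hu'.act (Subgroup.inv_mem _ hx)
    obtain ⟨p, hp, hp0, l, hl, e⟩ := sp_nb k' h1 (by
      rwa [← om_spe_left k' (_ • _), ← om_smul_smul x, smul_inv_smul])
    have := rG (spe k') (l • spe k') (supp_spe1 _) ((supp_spe1 _).act hl) (x * p)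
      (Subgroup.mul_mem _ hx (hk ▸ hp))
    rwa [mul_smul, hp0, mul_smul, ← mul_smul p, e, smul_inv_smul] at this
  have rD : ∀ u : SpV n F, Supp (geS n (k + 1)) u → ∀ a b : F, Rel (a • u) (b • u) := by
    intro u hu a b
    by_cases h0 : u = 0
    · subst h0
      exact rP _ _ ((Supp.zero _).smul a) ((Supp.zero _).smul b)
    · obtain ⟨x, hx, rfl⟩ := htr u hu h0
      rw [← sp_smul_smul, ← sp_smul_smul]
      exact rG _ _ ((supp_spe1 _).smul a) ((supp_spe1 _).smul b) x hx
  refine ⟨y, yc, fun u hu u' hu' => ?_, fun t c => ?_⟩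
  · change Rel u u'
    by_cases h0 : om u u' ≠ 0
    · exact rN u u' hu hu' h0
    rw [not_not] at h0
    by_cases h1 : u = 0
    · simpa [h1] using rD u' hu' 0 1
    by_cases h2 : u' = 0
    · simpa [h2] using rD u hu 1 0
    by_cases h3 : u + u' = 0
    · have := rD u hu 1 (-1)
      rwa [one_smul, neg_one_smul, neg_eq_of_add_eq_zero_right h3] at this
    obtain ⟨v, hv, a1, a2, a3⟩ := hu.exists_om3 hF h1 hu' h2 (hu.add hu') h3
    intro c c'
    have e1 := rN v (u' - v) hv (hu'.sub hv) (by simpa using om_ne_symm a2) 0 (c' - om u' v)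
    have e2 := rN u v hu hv a1 c 0
    have e3 := rN (u + v) (u' - v) (hu.add hv) (hu'.sub hv) (by
      simp only [om_add_left, om_sub_right, om_self, h0] at a3 ⊢
      rw [om_swap v u']
      intro h
      apply a3
      linear_combination -h) (c + 0 + om v u) (c' - om u' v)
    rw [add_sub_cancel, show 0 + (c' - om u' v) + om (u' - v) v = c' by simp] at e1
    rw [← e1, ← mul_assoc, e2, e3]
    congr 1
    · abel
    · simp only [om_add_right, om_sub_left, om_self]; ring
  · rw [(yP _ ((supp_spe1 _).smul t) c).2, hΨM _ (spE_mem_M hk t c)]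

theorem sp_phi (hF : ∃ a : F, a ≠ 0 ∧ a ≠ 1) : ∃ φ : SpG n F → H,
    HomOn (spFix F (geS n k) ⊓ MulAction.stabilizer (SpG n F) (spe k : SpV n F)) φ ∧
    (∀ g ∈ spFix F (geS n (k + 1)), φ g = Φ g) ∧
    ∀ g ∈ spM F (pairS k), φ g = α (Sum.inr k) g := by
  classical
  obtain ⟨y, yc, ym, yM⟩ := sp_heis hα hk hΦ hag hF
  have hom : ∀ {u : SpV n F}, Supp (geS n (k + 1)) u → om (spe k) u = 0 := fun hu => by
    simp [hu k (not_mem_geS k)]
  have hdec : ∀ p ∈ spFix F (geS n k) ⊓ MulAction.stabilizer (SpG n F) (spe k : SpV n F),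
      ∃ u c, Supp (geS n (k + 1)) u ∧ ∃ g ∈ spFix F (geS n (k + 1)), p = spE (spe k) u c * g :=
    fun p hp => stab_decomp (not_mem_geS k) (geS_eq_insert k ▸ hp.1) hp.2
  let φ : SpG n F → H := fun p =>
    if h : ∃ t : SpV n F × F × SpG n F, Supp (geS n (k + 1)) t.1 ∧
      t.2.2 ∈ spFix F (geS n (k + 1)) ∧ p = spE (spe k) t.1 t.2.1 * t.2.2
    then y h.choose.1 h.choose.2.1 * Φ h.choose.2.2 else 1
  have hφ : ∀ u, Supp (geS n (k + 1)) u → ∀ c, ∀ g ∈ spFix F (geS n (k + 1)),
      φ (spE (spe k) u c * g) = y u c * Φ g := by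
    intro u hu c g hg
    have h : ∃ t : SpV n F × F × SpG n F, Supp (geS n (k + 1)) t.1 ∧
      t.2.2 ∈ spFix F (geS n (k + 1)) ∧ spE (spe k) u c * g = spE (spe k) t.1 t.2.1 * t.2.2 :=
      ⟨(u, c, g), hu, hg, rfl⟩
    simp only [φ, dif_pos h]
    obtain ⟨h1, h2, h3⟩ := h.choose_spec
    obtain ⟨e1, e2, e3⟩ := stab_decomp_unique (not_mem_geS k) hu h1 hg h2 h3
    rw [← e1, ← e2, ← e3]
  clear_value φ
  have hE0 : spE (spe k : SpV n F) 0 0 = 1 := sp_ext fun v => by simp [spE_smul]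
  have hMh := hα.homOn (Sum.inr k)
  refine ⟨φ, fun p hp p' hp' => ?_, fun g hg => ?_, fun g hg => ?_⟩
  · obtain ⟨u, c, hu, g, hg, rfl⟩ := hdec p hp
    obtain ⟨u', c', hu', g', hg', rfl⟩ := hdec p' hp'
    have e := spE_conj (hom hu') c' g
    rw [(hg k (not_mem_geS k)).1] at e
    rw [hφ u hu c g hg, hφ u' hu' c' g' hg',
      show spE (spe k) u c * g * (spE (spe k) u' c' * g') =
        spE (spe k) u c * (g * spE (spe k) u' c' * g⁻¹) * (g * g') by group, e,
      spE_mul (hom hu) (hom (hu'.act hg)), hφ _ (hu.add (hu'.act hg)) _ _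
        (Subgroup.mul_mem _ hg hg'), ← ym u hu _ (hu'.act hg), ← yc u' hu' c' g hg,
      hΦ.map_mul hg hg']
    group
  · have := hφ 0 (Supp.zero _) 0 g hg
    have h0 := yM 0 0
    rw [zero_smul, hE0, hMh.map_one] at h0
    rwa [hE0, h0, one_mul, one_mul] at this
  · have hgG : g ∈ spFix F (geS n k) := spA_le (a := Sum.inr k) (le_refl _) hg
    obtain ⟨u, c, hu, x, hx, e⟩ := hdec g ⟨hgG, hg.1 k⟩
    have hf : g • (spf k : SpV n F) = spf k - u - c • spe k := by
      rw [e, mul_smul, (hx k (not_mem_geS k)).2, spE_smul_spf (not_mem_geS k) hu]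
    have hu2 : u = u (Sum.inl k') • spe k' := by
      ext i
      cases i with
      | inl l =>
        by_cases hl : l = k'
        · simp [hl]
        by_cases hl2 : l = k
        · simp [hl, hl2 ▸ (hu k (not_mem_geS k)).1]
        have h1 := spFix_inl (spM_le_spFix _ hg) (l := l) (by
          rintro (h | h)
          · exact hl2 h
          · exact hl (Fin.ext (h.trans hk.symm))) (spf k)
        rw [hf] at h1
        simpa [hl, hl2] using h1
      | inr l =>
        have h1 := smul_inr_of_fix (hg.1 l) (spf k)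
        rw [hf] at h1
        simpa using h1
    have hEM : spE (spe k) u c ∈ spM F (pairS k) := hu2 ▸ spE_mem_M hk _ c
    have hxM : x ∈ spM F (pairS k) := by
      have := Subgroup.mul_mem _ (Subgroup.inv_mem _ hEM) hg
      rwa [e, inv_mul_cancel_left] at this
    have hxS : x ∈ spFix F {k'} := by
      intro l hl
      refine ⟨hxM.1 l, ?_⟩
      by_cases hl2 : l = k
      · rw [hl2]; exact (hx k (not_mem_geS k)).2
      · refine hxM.2 l ?_
        rintro (h | h)
        · exact hl2 h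
        · exact hl (Fin.ext (h.trans hk.symm))
    rw [e, hφ u hu c x hx, hMh.map_mul hEM hxM, hag (Sum.inl k') hk.ge x hxS,
      hα.agree (a := Sum.inl k') (b := Sum.inr k) hxS hxM, hu2, yM]

theorem sp_step (hF : ∃ a : F, a ≠ 0 ∧ a ≠ 1) : ∃ Φ' : SpG n F → H,
    HomOn (spFix F (geS n k)) Φ' ∧ ∀ a, (k : ℕ) ≤ spLev a → ∀ g ∈ spA F a, Φ' g = α a g := by
  obtain ⟨φ, hφ, hφG, hφM⟩ := sp_phi hα hk hΦ hag hF
  obtain ⟨ρ, hρ, hρM, hρS⟩ := hα (Sum.inr k) (Sum.inl k)
  have hkk : k' ≠ k := fun h => by rw [h] at hk; omega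
  have hk' : k' ∈ geS n (k + 1) := hk.ge
  have he : Supp (geS n k) (spe k : SpV n F) := supp_spe (mem_geS (le_refl _))
  have hGG : spFix F (geS n (k + 1)) ≤ spFix F (geS n k) := spFix_mono (geS_mono (by omega))
  have hMG : spM F (pairS k) ≤ spFix F (geS n k) := spA_le (a := Sum.inr k) (le_refl _)
  have hSG : spFix F {k} ≤ spFix F (geS n k) := spA_le (a := Sum.inl k) (le_refl _)
  set R := spA F (Sum.inr k) ⊔ spA F (Sum.inl k) with hR
  have hRle : R ≤ spFix F (pairS k) ⊓ MulAction.stabilizer (SpG n F) (spe k' : SpV n F) :=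
    sup_le (fun g hg => ⟨spM_le_spFix _ hg, hg.1 k'⟩) fun g hg =>
      ⟨spFix_mono (by rintro l rfl; exact Or.inl rfl) hg, (hg k' hkk).1⟩
  -- reaching the vectors of the three-dimensional space inside `R`
  have hreach : ∀ a b c : F, b ≠ 0 → ∃ p ∈ R, p • (spe k : SpV n F) = spe k ∧
      ∃ l ∈ spFix F {k}, (p * l) • (spe k : SpV n F) = a • spe k + b • spf k + c • spe k' := by
    intro a b c hb
    obtain ⟨l, hl, e⟩ := exists_S_smul k a hb
    have hp := spE_mem_M hk (-(c / b)) (0 : F)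
    refine ⟨_, Subgroup.mem_sup_left hp, hp.1 k, l, hl, ?_⟩
    rw [mul_smul, e, spE_smul (by simp)]
    simp only [om_add_left, om_smul_left, om_smul_right, om_spe_right, spe_inr, spf_inr,
      if_neg hkk, if_true, Pi.add_apply, Pi.smul_apply, smul_eq_mul]
    match_scalars <;> field_simp <;> ring
  obtain ⟨Φ', h1, h2, h3⟩ := exists_homOn_of_amalgam (spFix F (geS n k)) (spFix F {k}) R
    (spe k : SpV n F) {v | Supp (geS n k) v ∧ v ≠ 0} (fun u v => om u v ≠ 0)
    (fun u v w => om u v ≠ 0 ∧ om v w ≠ 0 ∧ om u w ≠ 0) le_sup_right (sup_le hMG hSG)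
    (fun x hx => spFix_trans he (spe_ne_zero k) hx.1 hx.2)
    (fun g hg => ⟨he.act hg, sp_smul_ne_zero g (spe_ne_zero k)⟩)
    (fun g _ x y h => by simpa using h) (fun g _ x y z h => by simpa using h)
    (fun x _ y _ h => om_ne_symm h) (fun x _ y _ z _ h => h) φ ρ hφ hρ
    (fun r hr hr0 => by
      have hrM : r ∈ spM F (pairS k) := by
        refine ⟨fun l => ?_, fun l hl => ((hRle hr).1 l hl).2⟩
        by_cases hl : l ∈ pairS k
        · rcases hl with rfl | hl
          · exact hr0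
          · rw [show l = k' from Fin.ext (hl.trans hk.symm)]; exact (hRle hr).2
        · exact ((hRle hr).1 l hl).1
      rw [hφM r hrM, hρM r hrM])
    (fun y hy h => sp_nb k hy.1 (by simpa using h))
    (fun r hr h => by
      obtain ⟨p, hp, hp0, l, hl, e⟩ := hreach ((r • spe k) (Sum.inl k)) ((r • spe k) (Sum.inr k))
        ((r • spe k) (Sum.inl k')) (by simpa using h)
      refine ⟨p, hp, hp0, l, hl, ?_⟩
      rw [e]
      have s1 : Supp (pairS k) (r • (spe k : SpV n F)) := (supp_spe (Or.inl rfl)).act (hRle hr).1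
      have s2 := smul_inr_of_fix (hRle hr).2 (spe k)
      generalize r • (spe k : SpV n F) = v at s1 s2
      ext i
      cases i with
      | inl l =>
        by_cases hl : l = k
        · simp [hl, hkk.symm]
        by_cases hl' : l = k'
        · simp [hl', hkk]
        have := s1 l (by
          rintro (h | h)
          · exact hl h
          · exact hl' (Fin.ext (h.trans hk.symm)))
        simp [hl, hl', this]
      | inr l =>
        by_cases hl : l = k
        · simp [hl]
        by_cases hl' : l = k'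
        · simpa [hl', hkk] using s2.symm
        have := s1 l (by
          rintro (h | h)
          · exact hl h
          · exact hl' (Fin.ext (h.trans hk.symm)))
        simp [hl, this])
    (fun l hl l' hl' h p hp hp0 e => by
      obtain ⟨u, c, hu, g, hg, rfl⟩ := stab_decomp (not_mem_geS k) (geS_eq_insert k ▸ hp) hp0
      have hgl : g * l = l * g := spFix_comm (by simp [not_mem_geS]) hg hl
      have hge : g • (spe k : SpV n F) = spe k := (hg k (not_mem_geS k)).1
      have hu0 : u = 0 := by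
        rw [mul_assoc, hgl, mul_smul, mul_smul, hge,
          spE_smul (by simp [hu k (not_mem_geS k)])] at e
        have s1 := (supp_spe1 k).act hl
        have s2 := (supp_spe1 k).act hl'
        rw [← e] at s2
        have h' := om_ne_symm h
        ext i
        cases i with
        | inl j =>
          by_cases hj : j = k
          · rw [hj]; exact (hu k (not_mem_geS k)).1
          · have := (s2 j hj).1
            simp only [Pi.add_apply, Pi.smul_apply, (s1 j hj).1, spe_inl, if_neg hj, smul_eq_mul,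
              mul_zero, add_zero, zero_add, mul_eq_zero, h', false_or] at this
            exact this
        | inr j =>
          by_cases hj : j = k
          · rw [hj]; exact (hu k (not_mem_geS k)).2
          · have := (s2 j hj).2
            simp only [Pi.add_apply, Pi.smul_apply, (s1 j hj).2, spe_inr, smul_eq_mul,
              mul_zero, add_zero, zero_add, mul_eq_zero, h', false_or] at this
            exact this
      subst hu0
      refine ⟨_, spE_mem_spFix (supp_spe1 k) (Supp.zero _) c, spE_smul_self (by simp) c, g,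
        hGG hg, hge, rfl, hgl, ?_⟩
      rw [hφG g hg, hρS l hl]
      exact sp_comm_S hα hΦ hag hl hg)
    (fun y hy z hz h => by
      obtain ⟨u, c, hu, e⟩ := exists_spE_smul (not_mem_geS k) (geS_eq_insert k ▸ hy.1)
        (by simpa using h.1)
      have hE : spE (spe k) u c ∈ spFix F (geS n k) :=
        spE_mem_spFix he (hu.mono (geS_mono (by omega))) c
      have hE0 : spE (spe k) u c • (spe k : SpV n F) = spe k :=
        spE_smul_self (by simp [hu k (not_mem_geS k)]) c
      set z' := (spE (spe k) u c)⁻¹ • z with hz'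
      have hz1 : Supp (geS n k) z' := hz.1.act (Subgroup.inv_mem _ hE)
      have hz2 : z' (Sum.inr k) ≠ 0 := by
        rw [hz', smul_inr_of_fix (by rw [inv_smul_eq_iff, hE0])]
        simpa using h.2.2
      have hw : Supp (geS n (k + 1))
          (z' - z' (Sum.inl k) • spe k - z' (Sum.inr k) • spf k) := by
        intro l hl
        by_cases hlk : l = k
        · simp [hlk]
        · have := hz1 l (by rw [geS_eq_insert]; simp [hlk, hl])
          simp [hlk, this]
      obtain ⟨g, hg, t, ht⟩ : ∃ g ∈ spFix F (geS n (k + 1)), ∃ t : F,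
          g • (t • spe k' : SpV n F) = z' - z' (Sum.inl k) • spe k - z' (Sum.inr k) • spf k := by
        by_cases h0 : z' - z' (Sum.inl k) • spe k - z' (Sum.inr k) • spf k = 0
        · exact ⟨1, Subgroup.one_mem _, 0, by simp [h0]⟩
        · obtain ⟨g, hg, e⟩ := spFix_trans (supp_spe hk') (spe_ne_zero k') hw h0
          exact ⟨g, hg, 1, by rw [one_smul, e]⟩
      obtain ⟨l, hl, el⟩ := exists_S_smul k 0 (b := y (Sum.inr k)) (by simpa using h.1)
      obtain ⟨p, hp, -, l', hl', el'⟩ := hreach (z' (Sum.inl k)) _ t hz2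
      have hge := hg k (not_mem_geS k)
      refine ⟨spE (spe k) u c * g, Subgroup.mul_mem _ hE (hGG hg), by rw [mul_smul, hge.1, hE0],
        l, Subgroup.mem_sup_right hl, p * l', Subgroup.mul_mem _ hp (Subgroup.mem_sup_right hl'),
        ?_, ?_⟩
      · rw [mul_smul, mul_smul, el, zero_smul, zero_add, sp_smul_smul g, hge.2, e]
      · rw [mul_smul, el', mul_smul, smul_add g, smul_add g, ht, sp_smul_smul g, sp_smul_smul g,
          hge.1, hge.2, ← eq_inv_smul_iff, ← hz']
        abel)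
    (conn_of_common _ _ _ ⟨he, spe_ne_zero k⟩ fun y hy => by
      obtain ⟨v, hv, h1, h2⟩ := he.exists_om2 (spe_ne_zero k) hy.1 hy.2
      exact ⟨v, ⟨hv, by rintro rfl; simp at h1⟩, h1, om_ne_symm h2⟩)
    (fun c hc hT => by
      have hT' : ∀ x ∈ {v : SpV n F | Supp (geS n k) v ∧ v ≠ 0},
          ∀ y ∈ {v : SpV n F | Supp (geS n k) v ∧ v ≠ 0},
          ∀ z ∈ {v : SpV n F | Supp (geS n k) v ∧ v ≠ 0},
          om x y ≠ 0 → om y z ≠ 0 → om x z ≠ 0 → c x y * c y z = c x z :=
        fun x hx y hy z hz a1 a2 a3 => hT x hx y hy z hz ⟨a1, a2, a3⟩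
      refine exists_potential _ _ (spe k) c hT' (fun y hy z hz _ => ?_)
        (fun x _ y _ h => om_ne_symm h) fun y hy a ha b hb a1 a2 b1 b2 => ?_
      · obtain ⟨v, hv, h1, h2, h3⟩ := he.exists_om3 hF (spe_ne_zero k) hy.1 hy.2 hz.1 hz.2
        exact ⟨v, ⟨hv, by rintro rfl; simp at h1⟩, h1, om_ne_symm h2, om_ne_symm h3⟩
      · have hx : (spe k : SpV n F) ∈ {v : SpV n F | Supp (geS n k) v ∧ v ≠ 0} :=
          ⟨he, spe_ne_zero k⟩
        generalize (spe k : SpV n F) = x at hx a1 b1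
        by_cases hab : om a b ≠ 0
        · exact quad_of_adj hT' hx hy ha hb a1 a2 b1 b2 hab
        rw [not_not] at hab
        obtain ⟨t, t0, t1⟩ := exists_ne_ne hF 0 (-(om a y) / om x y)
        have v1 : om x (a + t • x) ≠ 0 := by simpa using a1
        have hv : a + t • x ∈ {v : SpV n F | Supp (geS n k) v ∧ v ≠ 0} :=
          ⟨ha.1.add (hx.1.smul t), by rintro h; rw [h] at v1; simp at v1⟩
        have v2 : om (a + t • x) y ≠ 0 := by
          intro h
          simp only [om_add_left, om_smul_left] at h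
          by_cases hxy : om x y = 0
          · exact a2 (by simpa [hxy] using h)
          · apply t1
            field_simp
            linear_combination h
        rw [quad_of_adj hT' hx hy ha hv a1 a2 v1 v2 (by simpa [t0] using om_ne_symm a1),
          quad_of_adj hT' hx hy hv hb v1 v2 b1 b2 (by simpa [t0, hab] using b1)])
  refine ⟨Φ', h1, fun a ha g hg => ?_⟩
  by_cases ha' : (k : ℕ) + 1 ≤ spLev a
  · have hg' := spA_le ha' hg
    rw [h2 g (hGG hg') (hg' k (not_mem_geS k)).1, hφG g hg', hag a ha' g hg]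
  cases a with
  | inr i =>
    obtain rfl : i = k := Fin.ext (by change (k : ℕ) ≤ i at ha; change ¬ (k : ℕ) + 1 ≤ i at ha'; omega)
    rw [h2 g (hMG hg) (hg.1 i), hφM g hg]
  | inl i =>
    obtain rfl : i = k := Fin.ext (by change (k : ℕ) ≤ i at ha; change ¬ (k : ℕ) + 1 ≤ i at ha'; omega)
    have key : ∀ g ∈ spFix F {i}, om (spe i) (g • (spe i : SpV n F)) ≠ 0 →
        Φ' g = α (Sum.inl i) g := fun g hg h => by
      rw [h3 g (Subgroup.mem_sup_right hg) h, hρS g hg]
    obtain ⟨v, hv, v1, v2⟩ := (supp_spe1 i).exists_om2 (spe_ne_zero i) ((supp_spe1 i).act hg)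
      (sp_smul_ne_zero g (spe_ne_zero i))
    obtain ⟨x, hx, e⟩ := spFix_trans (supp_spe1 i) (spe_ne_zero i) hv (by rintro rfl; simp at v1)
    have hxg : x⁻¹ * g ∈ spFix F {i} := Subgroup.mul_mem _ (Subgroup.inv_mem _ hx) hg
    have e1 := key x hx (by rw [e]; exact v1)
    have e2 := key _ hxg (by rw [mul_smul, om_smul_right', inv_inv, e]; exact om_ne_symm v2)
    rw [show g = x * (x⁻¹ * g) by group, h1.map_mul (hSG hx) (hSG hxg), e1, e2,
      (hα.homOn (Sum.inl i)).map_mul hx hxg]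

end Step

/-- Existence of the extension. -/
theorem sp_exists (hF : ∃ a : F, a ≠ 0 ∧ a ≠ 1) (hn : 1 ≤ n) {α : Fin n ⊕ Fin n → SpG n F → H}
    (hα : SpPairs α) : ∃ Φ : SpG n F →* H, ∀ a, ∀ g ∈ spA F a, Φ g = α a g := by
  have key : ∀ m k : ℕ, k + m + 1 = n → ∃ Φ : SpG n F → H, HomOn (spFix F (geS n k)) Φ ∧
      ∀ a, k ≤ spLev a → ∀ g ∈ spA F a, Φ g = α a g := by
    intro m
    induction m with
    | zero =>
      intro k hk
      let k0 : Fin n := ⟨k, by omega⟩
      have e : geS n k = {k0} := by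
        ext l
        simp only [geS, Set.mem_setOf_eq, Set.mem_singleton_iff, Fin.ext_iff, k0]
        omega
      refine ⟨α (Sum.inl k0), e ▸ hα.homOn (Sum.inl k0), fun a ha g hg => ?_⟩
      have := spA_le ha hg
      rw [e] at this
      exact hα.agree (a := Sum.inl k0) this hg
    | succ m ih =>
      intro k hk
      obtain ⟨Φ, h1, h2⟩ := ih (k + 1) (by omega)
      exact sp_step hα (k := ⟨k, by omega⟩) (k' := ⟨k + 1, by omega⟩) rfl h1 h2 hF
  obtain ⟨Φ, h1, h2⟩ := key (n - 1) 0 (by omega)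
  have e : spFix F (geS n 0) = ⊤ := by
    rw [eq_top_iff]
    intro g _ l hl
    exact absurd (Nat.zero_le _) hl
  rw [e] at h1
  exact ⟨h1.toHomTop, fun a g hg => h2 a (Nat.zero_le _) g hg⟩

theorem sp_gen_top (N : Subgroup (SpG n F)) (h : ∀ a, spA F a ≤ N) : N = ⊤ := by
  rw [eq_top_iff]
  intro g _
  exact sp_gen N 0 (fun a _ => h a) fun l hl => absurd (Nat.zero_le _) hl

end Cfsg.Agent.Amalg
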