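import Mathlib
import Cfsg.Agent.Amalg.URec3

/-!
Phan's theorem for weak Phan systems over the field with nine elements.
-/

set_option autoImplicit false

namespace Cfsg.Agent.Amalg

open Matrix Set MatrixGroups Cfsg.Agent.Pres

theorem comm_of_sq {Γ G : Type*} [Group Γ] [Group G] {g : Γ →* G}
    (hker : ∀ z, g z = 1 → ∀ x, z * x = x * z) {x y c : Γ} (h : g c * g y = g y * g c)
    (hy : y * y = 1) (hx : g (c * c) = g x) : x * y = y * x := by
  have h1 := hker (c * y * c⁻¹ * y⁻¹) (by simp [h])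
  have h2 := hker (x * (c * c)⁻¹) (by rw [map_mul, map_inv, hx, mul_inv_cancel])
  have e : c * y * c⁻¹ = c * y * c⁻¹ * y⁻¹ * y := by group
  have e2 : x = x * (c * c)⁻¹ * (c * c) := by group
  generalize c * y * c⁻¹ * y⁻¹ = ζ at h1 e
  generalize x * (c * c)⁻¹ = η at h2 e2
  have h3 : ζ * ζ = 1 := by
    calc ζ * ζ = ζ * ζ * (y * y) := by rw [hy, mul_one]
      _ = ζ * (ζ * y) * y := by group
      _ = (ζ * y) * (ζ * y) := by nth_rewrite 1 [h1 y]; group
      _ = c * (y * y) * c⁻¹ := by rw [← e]; group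
      _ = 1 := by rw [hy]; group
  have h4 : c * c * y = y * (c * c) := by
    calc c * c * y = c * (c * y * c⁻¹) * c := by group
      _ = (c * ζ) * y * c := by rw [e]; group
      _ = ζ * (c * y * c⁻¹) * (c * c) := by rw [← h1 c]; group
      _ = ζ * ζ * y * (c * c) := by rw [e]; group
      _ = _ := by rw [h3, one_mul]
  rw [e2, mul_assoc, h4, ← mul_assoc, h2 y, mul_assoc]

section Three

variable {F : Type*} [Field F] [Fintype F] [hF : Fact (Fintype.card F = 3 ^ 2)]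
  {G : Type*} [Group G]

include hF in
theorem three_eq_zero : (3 : F) = 0 := by
  have := FiniteField.cast_card_eq_zero F
  rw [hF.out] at this
  push_cast at this
  exact (pow_eq_zero_iff (n := 2) (by norm_num)).1 (by linear_combination this)

include hF in
theorem two_ne_zero3 : (2 : F) ≠ 0 := fun h2 =>
  one_ne_zero (by linear_combination three_eq_zero (F := F) - h2 : (1 : F) = 0)

theorem exists_gen3 : ∃ a b : SU 2 F 3, Gen3 a b ∧ Subgroup.closure {a, b} = ⊤ ∧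
    (a * b * a) ^ 2 = suM1 := by
  obtain ⟨-, c, hc, -⟩ := exists_sl2_su2 (F := F) (q := 3)
  have h3 : (3 : cjFix F 3) = 0 := Subtype.ext three_eq_zero
  have hg : Gen3 (c (sl2u 1)) (c (sl2l (-1))) := by
    refine ⟨?_, ?_, ?_⟩
    · rw [← map_pow, sl2u_pow]; simp [h3, sl2u_zero]
    · rw [← map_pow, sl2l_pow]; simp [h3, sl2l_zero]
    · simp only [← map_mul]
      congr 1
      ext i j
      fin_cases i <;> fin_cases j <;> simp [Matrix.mul_apply, Fin.sum_univ_two]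
  refine ⟨_, _, hg, ?_, (su2_invol two_ne_zero3 hg.sq).resolve_left fun h => ?_⟩
  · have ht : ∀ t : cjFix F 3, t = 0 ∨ t = 1 ∨ t = -1 := by
      intro t
      have h1 : (t : F) ^ 3 = t := t.2
      have h2 : t * ((t - 1) * (t + 1)) = 0 := Subtype.ext (by push_cast; linear_combination h1)
      simpa [sub_eq_zero, add_eq_zero_iff_eq_neg] using h2
    have ha : c (sl2u 1) ∈ Subgroup.closure {c (sl2u 1), c (sl2l (-1))} :=
      Subgroup.subset_closure (by simp)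
    have hb : c (sl2l (-1)) ∈ Subgroup.closure {c (sl2u 1), c (sl2l (-1))} :=
      Subgroup.subset_closure (by simp)
    generalize Subgroup.closure {c (sl2u 1), c (sl2l (-1))} = K at ha hb
    have := sl2_eq_top (K.comap c) (fun t => by
      rcases ht t with rfl | rfl | rfl
      · rw [sl2u_zero]; exact one_mem _
      · exact ha
      · rw [show (-1 : cjFix F 3) = 1 + 1 by linear_combination -h3, sl2u_add]
        exact mul_mem ha ha) (fun t => by
      rcases ht t with rfl | rfl | rfl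
      · rw [sl2l_zero]; exact one_mem _
      · rw [show (1 : cjFix F 3) = -1 + -1 by linear_combination h3, sl2l_add]
        exact mul_mem hb hb
      · exact hb)
    rw [eq_top_iff]
    intro x _
    obtain ⟨y, rfl⟩ := hc.2 x
    exact (this ▸ Subgroup.mem_top y : y ∈ Subgroup.comap c _)
  · rw [← map_mul, ← map_mul, ← map_pow, ← map_one c] at h
    have := congrArg (fun x : SL(2, cjFix F 3) => x 0 0) (hc.1 h)
    simp [_root_.sq, Matrix.mul_apply, Fin.sum_univ_two] at this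
    exact two_ne_zero3 (F := F) (by
      have := congrArg Subtype.val this
      push_cast at this
      linear_combination -this)

theorem block_map_eq {N k : ℕ} (hk : k + 2 ≤ N) {g : SU N F 3 →* G} {θ : SU 2 F 3 →* G}
    (hθ : Function.Injective θ) {a b : SU 2 F 3} (hab : Subgroup.closure {a, b} = ⊤)
    {x y : SU N F 3} (hx : x ∈ uFix N F 3 (Ico k (k + 2))) (hy : y ∈ uFix N F 3 (Ico k (k + 2)))
    (ex : g x = θ a) (ey : g y = θ b) : (uFix N F 3 (Ico k (k + 2))).map g = θ.range := by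
  haveI := finite_SU (N := N) (F := F) (q := 3)
  haveI : Finite ((uFix N F 3 (Ico k (k + 2))).map g) :=
    Finite.of_surjective _ (g.subgroupMap_surjective _)
  symm
  refine Subgroup.eq_of_le_of_card_ge ?_ ?_
  · rw [MonoidHom.range_eq_map, ← hab, MonoidHom.map_closure, Subgroup.closure_le]
    rintro _ ⟨z, rfl | rfl, rfl⟩
    exacts [⟨x, hx, ex⟩, ⟨y, hy, ey⟩]
  · rw [← Nat.card_congr (MonoidHom.ofInjective hθ).toEquiv, ← card_uFix_Ico hk]
    exact Nat.card_le_card_of_surjective _ (g.subgroupMap_surjective _)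

theorem invol_block {N k : ℕ} (hk : k + 2 ≤ N) {z : SU N F 3}
    (hz : z ∈ uFix N F 3 (Ico k (k + 2))) (h2 : z * z = 1) (h1 : z ≠ 1) :
    z = suEmb (ivE 2 k hk) suM1 := by
  obtain ⟨x, rfl⟩ := (mem_uFix_Ico 2 k hk z).1 hz
  rw [← map_mul, ← map_one (suEmb (ivE 2 k hk))] at h2
  rcases su2_invol two_ne_zero3 (suEmb_injective _ h2) with rfl | rfl
  · exact absurd (map_one _) h1
  · rfl

theorem invol_range {θ : SU 2 F 3 →* G} (hθ : Function.Injective θ) {z : G} (hz : z ∈ θ.range)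
    (h2 : z * z = 1) (h1 : z ≠ 1) : z = θ suM1 := by
  obtain ⟨x, rfl⟩ := hz
  rw [← map_mul, ← map_one θ] at h2
  rcases su2_invol two_ne_zero3 (hθ h2) with rfl | rfl
  · exact absurd (map_one _) h1
  · rfl

theorem suM1_ne_one : (suM1 : SU 2 F 3) ≠ 1 := fun h => by
  have := congrFun (congrFun (congrArg suM h) 0) 0
  simp [suM1, suM_su2, suM_one] at this
  exact two_ne_zero3 (F := F) (by linear_combination -this)

theorem rec3_ends {V0 U0 U1 : Subgroup G} {φ : SU 3 F 3 →* G} (h0 : PhanHom V0 U0 U1 φ)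
    {θ : SU 2 F 3 →* G} (hθ : Function.Injective θ)
    (hc : ∀ x ∈ U0, ∀ y ∈ θ.range, x * y = y * x) {g : SU 4 F 3 →* G}
    (hker : ∀ z, g z = 1 → (∀ x, z * x = x * z) ∧ z ^ 4 = 1) (hg0 : V0 ≤ g.range)
    (hg1 : θ.range ≤ g.range) : ∃ h : SU 4 F 3,
      (uFix 4 F 3 (Ico 0 2)).map (g.comp (MulAut.conj h).toMonoidHom) = U0 ∧
      (uFix 4 F 3 (Ico 2 4)).map (g.comp (MulAut.conj h).toMonoidHom) = θ.range := by
  have h2 := two_ne_zero3 (F := F)
  obtain ⟨a, b, hab, htop, hz⟩ := exists_gen3 (F := F)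
  have hφ : ∀ x, φ x ∈ g.range := fun x => hg0 (h0.range ▸ ⟨x, rfl⟩)
  have hmap : ∀ η : SU 2 F 3 →* G, Gen3 (η a) (η b) := fun η =>
    ⟨by rw [← map_pow, hab.ha, map_one], by rw [← map_pow, hab.hb, map_one], by
      simp only [← map_mul, hab.braid]⟩
  obtain ⟨a0, b0, ea0, eb0, g0⟩ := lift_gen3 hker (hφ _) (hφ _) (hmap (φ.comp i01))
  obtain ⟨a2, b2, ea2, eb2, g2⟩ := lift_gen3 hker (hg1 ⟨_, rfl⟩) (hg1 ⟨_, rfl⟩) (hmap θ)
  have hU0 : ∀ x, φ (i01 x) ∈ U0 := fun x => h0.left ▸ ⟨x, rfl⟩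
  have z0 : g ((a0 * b0 * a0) ^ 2) = φ (i01 suM1) := by
    simp only [map_pow, map_mul, ea0, eb0, ← hz]
  have z2 : g ((a2 * b2 * a2) ^ 2) = θ suM1 := by
    simp only [map_pow, map_mul, ea2, eb2, ← hz]
  obtain ⟨h, hh⟩ := invol_frame h2 g0.sq (by
    by_contra! hv
    rw [show (a0 * b0 * a0) ^ 2 = 1 from su_ext_vec (by simpa using hv), map_one] at z0
    exact suM1_ne_one (i01_inj h0.ker (z0.symm.trans (map_one _).symm))) (by
    by_contra! hv
    obtain ⟨w, hw⟩ := hφ (i12 suW)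
    apply noncomm12 h2 h0.ker
    rw [← z0, ← hw, ← map_mul, ← map_mul, scalar_comm (l := -1) (by simpa using hv)])
  have g0' := g0.conj h⁻¹
  have g2' := g2.conj h⁻¹
  have e : ∀ x y : SU 4 F 3, (h⁻¹ * x * h⁻¹⁻¹ * (h⁻¹ * y * h⁻¹⁻¹) * (h⁻¹ * x * h⁻¹⁻¹)) ^ 2 =
      h⁻¹ * (x * y * x) ^ 2 * h := fun x y => by simp only [_root_.sq]; group
  have cm : ∀ x y : SU 4 F 3, x ^ 3 = 1 → g x ∈ U0 → g y ∈ θ.range →
      h⁻¹ * x * h⁻¹⁻¹ * (h⁻¹ * y * h⁻¹⁻¹) = h⁻¹ * y * h⁻¹⁻¹ * (h⁻¹ * x * h⁻¹⁻¹) := by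
    intro x y hx h1 h3
    calc _ = h⁻¹ * (x * y) * h := by group
      _ = _ := by rw [comm3 hker hx (hc _ h1 _ h3)]; group
  have caa := cm a0 a2 g0.ha (ea0 ▸ hU0 _) (ea2 ▸ ⟨_, rfl⟩)
  have cab := cm a0 b2 g0.ha (ea0 ▸ hU0 _) (eb2 ▸ ⟨_, rfl⟩)
  have cba := cm b0 a2 g0.hb (eb0 ▸ hU0 _) (ea2 ▸ ⟨_, rfl⟩)
  have cbb := cm b0 b2 g0.hb (eb0 ▸ hU0 _) (eb2 ▸ ⟨_, rfl⟩)
  rw [← e] at hh
  have eg : ∀ x : SU 4 F 3, (g.comp (MulAut.conj h).toMonoidHom) (h⁻¹ * x * h⁻¹⁻¹) = g x :=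
    fun x => by simp [mul_assoc]
  have ne2 : (h⁻¹ * a2 * h⁻¹⁻¹ * (h⁻¹ * b2 * h⁻¹⁻¹) * (h⁻¹ * a2 * h⁻¹⁻¹)) ^ 2 ≠ 1 := by
    intro h1
    rw [e, mul_assoc, inv_mul_eq_one, eq_comm, mul_eq_right] at h1
    rw [h1, map_one] at z2
    exact suM1_ne_one (hθ (z2.symm.trans (map_one _).symm))
  rw [← eg] at ea0 eb0 ea2 eb2
  generalize h⁻¹ * a0 * h⁻¹⁻¹ = a0 at *
  generalize h⁻¹ * b0 * h⁻¹⁻¹ = b0 at *
  generalize h⁻¹ * a2 * h⁻¹⁻¹ = a2 at *
  generalize h⁻¹ * b2 * h⁻¹⁻¹ = b2 at *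
  have m2 : ∀ t : SU 4 F 3, t ^ 3 = 1 → a0 * t = t * a0 → b0 * t = t * b0 →
      t ∈ uFix 4 F 3 (Ico 2 4) := by
    intro t ht h1 h3 l hl
    by_cases h4 : 4 ≤ l
    · simp [ue_of_le h4]
    · exact fix_plane three_eq_zero g0' (k := 0) (by norm_num) hh ht h1.symm h3.symm
        (usupp_ue (by simp only [mem_Ico] at hl ⊢; omega))
  have ma2 := m2 a2 g2'.ha caa cba
  have mb2 := m2 b2 g2'.hb cab cbb
  have hh2 := diagInv_suM1 (F := F) (q := 3) (N := 4) (k := 2) le_rfl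
  rw [← invol_block (k := 2) le_rfl (pow_mem (mul_mem (mul_mem ma2 mb2) ma2) 2) g2'.sq ne2] at hh2
  have m0 : ∀ t : SU 4 F 3, t ^ 3 = 1 → t * a2 = a2 * t → t * b2 = b2 * t →
      t ∈ uFix 4 F 3 (Ico 0 2) := by
    intro t ht h1 h3 l hl
    by_cases h4 : 4 ≤ l
    · simp [ue_of_le h4]
    · exact fix_plane three_eq_zero g2' (k := 2) (by norm_num) hh2 ht h1 h3
        (usupp_ue (by simp only [mem_Ico] at hl ⊢; omega))
  refine ⟨h, ?_, block_map_eq (k := 2) le_rfl hθ htop ma2 mb2 ea2 eb2⟩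
  rw [← h0.left]
  exact block_map_eq (k := 0) (by norm_num) (i01_inj h0.ker) htop (m0 a0 g0'.ha caa cab)
    (m0 b0 g0'.hb cba cbb) ea0 eb0

theorem PhanHom.eq_sup {V A B : Subgroup G} {φ : SU 3 F 3 →* G} (h : PhanHom V A B φ) :
    V = A ⊔ B := by
  rw [← h.range, ← h.left, ← h.right, MonoidHom.range_comp, MonoidHom.range_comp,
    ← Subgroup.map_sup, MonoidHom.range_eq_map]
  congr 1
  refine (eq_top_iff.2 fun x _ => u_gen (N := 3) le_rfl le_rfl _ (k := 0) (by norm_num)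
    (fun j _ hj y hy => ?_) (mem_uFix_univ x)).symm
  rcases (show j = 0 ∨ j = 1 by omega) with rfl | rfl
  · exact Subgroup.mem_sup_left ((mem_uFix_Ico 2 0 _ y).1 hy)
  · exact Subgroup.mem_sup_right ((mem_uFix_Ico 2 1 _ y).1 hy)

theorem PhanHom.exists_cyc {V A B : Subgroup G} {φ : SU 3 F 3 →* G} (h : PhanHom V A B φ) :
    ∃ s ∈ V, A.map (MulAut.conj s).toMonoidHom = B := by
  obtain ⟨t, -, ht⟩ := All.u_trans (N := 3) (q := 3) (F := F) (k := 0) le_rfl (by norm_num)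
    (y := ue 2) ⟨usupp_univ _, hf_ue_self (by norm_num)⟩
  have e := map_conj_eq_of_le (A := uFix 3 F 3 (Ico 0 (0 + 2))) (B := uFix 3 F 3 (Ico 1 (1 + 2)))
    t⁻¹ (by rw [card_uFix_Ico (by norm_num), card_uFix_Ico (by norm_num)]) (fun y hy l hl => by
      simp only [mem_Ico, not_and, not_lt] at hl
      rcases (show l = 2 ∨ 3 ≤ l by omega) with rfl | h3
      · rw [← ht, mul_smul, mul_smul, inv_smul_smul, hy 0 (by simp), inv_inv]
      · simp [ue_of_le h3])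
  have e0 : uFix 3 F 3 (Ico 0 (0 + 2)) = (i01 : SU 2 F 3 →* SU 3 F 3).range := by
    ext g; exact mem_uFix_Ico 2 0 _ g
  have e1 : uFix 3 F 3 (Ico 1 (1 + 2)) = (i12 : SU 2 F 3 →* SU 3 F 3).range := by
    ext g; exact mem_uFix_Ico 2 1 _ g
  refine ⟨φ t⁻¹, h.range ▸ ⟨_, rfl⟩, ?_⟩
  rw [← h.left, ← h.right, MonoidHom.range_comp, MonoidHom.range_comp, ← e1, ← e, e0,
    Subgroup.map_map, Subgroup.map_map]
  congr 1
  ext x
  simp

theorem rec3_mid {V0 V1 U0 U1 U2 : Subgroup G} {φ ψ : SU 3 F 3 →* G} (h0 : PhanHom V0 U0 U1 φ)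
    (h1 : PhanHom V1 U1 U2 ψ) {g : SU 4 F 3 →* G}
    (hker : ∀ z, g z = 1 → (∀ x, z * x = x * z) ∧ z ^ 4 = 1) (hg0 : V0 ≤ g.range)
    (e0 : (uFix 4 F 3 (Ico 0 2)).map g = U0) (e2 : (uFix 4 F 3 (Ico 2 4)).map g = U2) :
    ∃ h : SU 4 F 3, (uFix 4 F 3 (Ico 0 2)).map (g.comp (MulAut.conj h).toMonoidHom) = U0 ∧
      (uFix 4 F 3 (Ico 1 3)).map (g.comp (MulAut.conj h).toMonoidHom) = U1 ∧
      (uFix 4 F 3 (Ico 2 4)).map (g.comp (MulAut.conj h).toMonoidHom) = U2 := by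
  have h2 := two_ne_zero3 (F := F)
  obtain ⟨s', hs', es⟩ := h0.exists_cyc
  obtain ⟨s, rfl⟩ := hg0 hs'
  have hm := diagInv_suM1 (F := F) (q := 3) (N := 4) (k := 0) (by norm_num)
  have hmB : (suEmb (ivE 2 0 (by norm_num)) suM1 : SU 4 F 3) ∈ uFix 4 F 3 (Ico 0 2) :=
    (mem_uFix_Ico 2 0 _ _).2 ⟨_, rfl⟩
  have hm2 : (suEmb (ivE 2 0 (by norm_num)) suM1 : SU 4 F 3) *
      suEmb (ivE 2 0 (by norm_num)) suM1 = 1 := by rw [← map_mul, suM1_sq, map_one]
  generalize (suEmb (ivE 2 0 (by norm_num)) suM1 : SU 4 F 3) = m at hm hmB hm2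
  have hm1 : g m ≠ 1 := by
    intro h
    obtain ⟨t, -, ht⟩ := All.u_trans (N := 4) (q := 3) (F := F) (k := 0) le_rfl (by norm_num)
      (y := ue 2) ⟨usupp_univ _, hf_ue_self (by norm_num)⟩
    have a := congrArg (fun x : SU 4 F 3 => hf 3 (x • (ue 0 : Fin 4 → F)) (ue 2)) ((hker m h).1 t)
    simp only [mul_smul, ht, hm.1 0 (by simp), hm.2 2 (by simp), smul_neg, hf_neg_left,
      hf_ue_self (show 2 < 4 by norm_num)] at a
    exact h2 (by linear_combination a)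
  have gm2 : g m * g m = 1 := by rw [← map_mul, hm2, map_one]
  have gm : g m = φ (i01 suM1) :=
    invol_range (i01_inj h0.ker) (by rw [h0.left, ← e0]; exact ⟨m, hmB, rfl⟩) gm2 hm1
  have zU : g (s * m * s⁻¹) ∈ U1 := by
    rw [← es, ← e0]; exact ⟨_, ⟨m, hmB, rfl⟩, by simp⟩
  have zz : s * m * s⁻¹ * (s * m * s⁻¹) = 1 := by
    calc _ = s * (m * m) * s⁻¹ := by group
      _ = 1 := by rw [hm2]; group
  have gz2 : g (s * m * s⁻¹) * g (s * m * s⁻¹) = 1 := by rw [← map_mul, zz, map_one]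
  have gz1 : g (s * m * s⁻¹) ≠ 1 := by simpa [mul_inv_eq_one] using hm1
  have gz : g (s * m * s⁻¹) = φ (i12 suM1) :=
    invol_range (i12_inj h0.ker) (by rwa [h0.right]) gz2 gz1
  have gz' : g (s * m * s⁻¹) = ψ (i01 suM1) :=
    invol_range (i01_inj h1.ker) (by rwa [h1.left]) gz2 gz1
  have hfix : ∀ y ∈ uFix 4 F 3 (Ico 0 2), ∀ v : Fin 4 → F, (s * m * s⁻¹) • v = v →
      (s * y * s⁻¹) • v = v := by
    intro y hy v hv
    rw [mul_smul, mul_smul, ← eq_inv_smul_iff] at hv ⊢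
    exact uFix_smul_eq hy (hm.usupp_of_fix h2 hv)
  have eB : ((uFix 4 F 3 (Ico 0 2)).map (MulAut.conj s).toMonoidHom).map g = U1 := by
    rw [← es, ← e0, Subgroup.map_map, Subgroup.map_map]
    congr 1
    ext x
    simp
  have cB : Nat.card ((uFix 4 F 3 (Ico 0 2)).map (MulAut.conj s).toMonoidHom) =
      Nat.card (SU 2 F 3) := by
    rw [Subgroup.card_map_of_injective (MulAut.conj s).injective]
    exact card_uFix_Ico (F := F) (q := 3) (N := 4) (m := 2) (k := 0) (by norm_num)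
  generalize s * m * s⁻¹ = z at zz gz gz' hfix
  have hzm : z * m = m * z := by
    obtain ⟨b, hb, hb2⟩ := exists_norm_one_sq (F := F) 3
    have hb4 : b ^ 2 = -1 := by
      have : (b ^ 2 - 1) * (b ^ 2 + 1) = 0 := by rw [cj_apply] at hb; linear_combination hb
      exact eq_neg_of_add_eq_zero_left ((mul_eq_zero.1 this).resolve_left (sub_ne_zero.2 hb2))
    have hb' : b * cj 3 b + 0 * cj 3 0 = 1 := by simpa using hb
    obtain ⟨c, hc⟩ : φ (i12 (su2 b 0 hb')) ∈ g.range := hg0 (h0.range ▸ ⟨_, rfl⟩)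
    refine comm_of_sq (fun z hz => (hker z hz).1) (c := c) ?_ hm2 ?_
    · rw [hc, gm, ← map_mul, ← map_mul]
      congr 1
      apply su_ext
      ext i j
      fin_cases i <;> fin_cases j <;>
        simp [suM_mul, suM_i01, suM_i12, suM1, suM_su2, Matrix.mul_apply, Fin.sum_univ_three]
    · rw [map_mul, hc, gz, ← map_mul, ← map_mul]
      congr 2
      have a1 : b * b = -1 := by rw [← _root_.sq, hb4]
      have a2 : cj 3 b * cj 3 b = -1 := by rw [← map_mul, a1]; simp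
      apply su_ext
      ext i j
      fin_cases i <;> fin_cases j <;>
        simp [suM_mul, suM1, suM_su2, Matrix.mul_apply, Fin.sum_univ_two, a1, a2]
  have p0 : ∀ v : Fin 4 → F, USupp 3 (Ico 0 2) v → USupp 3 (Ico 0 2) (z • v) := fun v hv =>
    hm.usupp_of_neg h2 (by rw [← mul_smul, ← hzm, mul_smul, hm.smul_neg hv, smul_neg])
  have p2 : ∀ v : Fin 4 → F, USupp 3 (Ico 0 2)ᶜ v → USupp 3 (Ico 0 2)ᶜ (z • v) := fun v hv =>
    hm.usupp_of_fix h2 (by rw [← mul_smul, ← hzm, mul_smul, hm.smul_fix hv])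
  have n0 : ∀ e : F, ∃ v : Fin 4 → F, USupp 3 (Ico 0 2) v ∧ z • v ≠ e • v := by
    intro e
    by_contra! hv
    obtain ⟨w, hw, ew⟩ : φ (i01 suW) ∈ (uFix 4 F 3 (Ico 0 2)).map g := by
      rw [e0, ← h0.left]; exact ⟨_, rfl⟩
    apply noncomm01 h2 h0.ker
    rw [← gz, ← ew, ← map_mul, ← map_mul, comm_of_scalar_on hv p2 hw]
  have n2 : ∀ e : F, ∃ v : Fin 4 → F, USupp 3 (Ico 0 2)ᶜ v ∧ z • v ≠ e • v := by
    intro e
    by_contra! hv
    obtain ⟨w, hw, ew⟩ : ψ (i12 suW) ∈ (uFix 4 F 3 (Ico 2 4)).map g := by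
      rw [e2, ← h1.right]; exact ⟨_, rfl⟩
    apply noncomm12 h2 h1.ker
    rw [← gz', ← ew, ← map_mul, ← map_mul, comm_of_scalar_on hv (by simpa using p0)
      (uFix_mono (fun l hl => by simp only [mem_Ico, mem_compl_iff] at hl ⊢; omega) hw)]
  obtain ⟨v0, hv0, hv0'⟩ := n0 (-1)
  obtain ⟨v1, hv1, hv1'⟩ := n0 (- -1)
  obtain ⟨v2, hv2, hv2'⟩ := n2 (- -1)
  obtain ⟨x0, hx0, ex0⟩ := exists_unit_eigen h2 zz p0 (e := 1) (by simp) (by simp) hv0 hv0'
  obtain ⟨x1, hx1, ex1⟩ := exists_unit_eigen h2 zz p0 (e := -1) (by simp) (by simp) hv1 hv1'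
  obtain ⟨x2, hx2, ex2⟩ := exists_unit_eigen h2 zz p2 (e := -1) (by simp) (by simp) hv2 hv2'
  obtain ⟨h, rfl, rfl, rfl⟩ := exists_frame3 le_rfl hx0.2 hx1.2 hx2.2
    (hf_eq_zero_comm (perp_of_eigen h2 (by simpa using ex1) (by simpa using ex0)))
    (hf_eq_zero_comm (hf_eq_zero_of_usupp hx0.1 hx2.1))
    (hf_eq_zero_comm (hf_eq_zero_of_usupp hx1.1 hx2.1))
  have last : ∀ (y : SU 4 F 3) (a b c : F), a * b * c = 1 →
      y • h • (ue 0 : Fin 4 → F) = a • h • ue 0 → y • h • (ue 1 : Fin 4 → F) = b • h • ue 1 →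
      y • h • (ue 2 : Fin 4 → F) = c • h • ue 2 → y • h • (ue 3 : Fin 4 → F) = h • ue 3 := by
    intro y a b c habc ha hb hc
    obtain ⟨d, h3, hd⟩ := last_eigen (g := h⁻¹ * y * h) (a := a) (b := b) (c := c)
      (by rw [mul_smul, mul_smul, ha, su_smul_smul, inv_smul_smul])
      (by rw [mul_smul, mul_smul, hb, su_smul_smul, inv_smul_smul])
      (by rw [mul_smul, mul_smul, hc, su_smul_smul, inv_smul_smul])
    rw [habc, one_mul] at hd
    rwa [hd, one_smul, mul_smul, mul_smul, inv_smul_eq_iff] at h3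
  have z3 := last z _ _ _ (by simp) ex0 ex1 ex2
  have m3 := hm.usupp_of_fix h2 (last m (-1) (-1) 1 (by simp) (by simpa using hm.smul_neg hx0.1)
    (by simpa using hm.smul_neg hx1.1) (by simpa using hm.smul_fix hx2.1))
  have c0 := card_uFix_Ico (F := F) (q := 3) (N := 4) (m := 2) (k := 0) (by norm_num)
  have c1 := card_uFix_Ico (F := F) (q := 3) (N := 4) (m := 2) (k := 1) (by norm_num)
  have key : ∀ (s : Set ℕ) (y : SU 4 F 3), (∀ l < 4, l ∉ s →
      y • h • (ue l : Fin 4 → F) = h • ue l) → h⁻¹ * y * h ∈ uFix 4 F 3 s := by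
    intro s y hy l hl
    by_cases h4 : l < 4
    · rw [mul_smul, mul_smul, hy l h4 hl, inv_smul_smul]
    · simp [ue_of_le (not_lt.1 h4)]
  refine ⟨h, ?_, ?_, ?_⟩ <;> rw [← Subgroup.map_map]
  · rw [map_conj_eq_of_le h rfl (fun y hy => key _ y fun l h4 hl => ?_), e0]
    simp only [mem_Ico, not_and, not_lt] at hl
    rcases (show l = 2 ∨ l = 3 by omega) with rfl | rfl
    exacts [uFix_smul_eq hy hx2.1, uFix_smul_eq hy m3]
  · rw [map_conj_eq_of_le h (c1.trans cB.symm) (fun y hy => key _ y fun l h4 hl => ?_), eB]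
    obtain ⟨y, hy, rfl⟩ := hy
    simp only [mem_Ico, not_and, not_lt] at hl
    rcases (show l = 0 ∨ l = 3 by omega) with rfl | rfl
    exacts [hfix y hy _ (by simpa using ex0), hfix y hy _ z3]
  · rw [map_conj_eq_of_le h rfl (fun y hy => key _ y fun l h4 hl => ?_), e2]
    have sub : Ico 0 2 ⊆ (Ico 2 4)ᶜ := fun l hl => by
      simp only [mem_Ico, mem_compl_iff] at hl ⊢; omega
    simp only [mem_Ico, not_and, not_lt] at hl
    rcases (show l = 0 ∨ l = 1 by omega) with rfl | rfl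
    exacts [uFix_smul_eq hy (hx0.1.mono sub), uFix_smul_eq hy (hx1.1.mono sub)]

theorem phanHom_block {V A B : Subgroup G} {φ : SU 3 F 3 →* G} (h : PhanHom V A B φ)
    {g : SU 4 F 3 →* G} (hker : ∀ z, g z = 1 → ∀ x, z * x = x * z) {k : ℕ} (hk : k + 3 ≤ 4)
    (hA : (uFix 4 F 3 (Ico k (k + 2))).map g = A)
    (hB : (uFix 4 F 3 (Ico (k + 1) (k + 1 + 2))).map g = B) :
    PhanHom V A B (g.comp (suEmb (ivE 3 k hk))) := by
  have key : PhanHom (g.comp (suEmb (ivE 3 k hk))).range A B (g.comp (suEmb (ivE 3 k hk))) := by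
    refine ⟨fun z hz => Subgroup.mem_center_iff.2 fun x => suEmb_injective (ivE 3 k hk) ?_, rfl,
      ?_, ?_⟩
    · rw [map_mul, map_mul, hker _ hz]
    · rw [← hA]
      ext y
      constructor
      · rintro ⟨x, rfl⟩
        exact ⟨_, (mem_uFix_Ico 2 k (by omega) _).2 ⟨x, rfl⟩, by
          simp only [MonoidHom.comp_apply, i01, suEmb_comp, ivE_trans]; rfl⟩
      · rintro ⟨y, hy, rfl⟩
        obtain ⟨x, rfl⟩ := (mem_uFix_Ico 2 k (by omega) _).1 hy
        exact ⟨x, by simp only [MonoidHom.comp_apply, i01, suEmb_comp, ivE_trans]; rfl⟩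
    · rw [← hB]
      ext y
      constructor
      · rintro ⟨x, rfl⟩
        exact ⟨_, (mem_uFix_Ico 2 (k + 1) (by omega) _).2 ⟨x, rfl⟩, by
          simp only [MonoidHom.comp_apply, i12, suEmb_comp, ivE_trans]⟩
      · rintro ⟨y, hy, rfl⟩
        obtain ⟨x, rfl⟩ := (mem_uFix_Ico 2 (k + 1) (by omega) _).1 hy
        exact ⟨x, by simp only [MonoidHom.comp_apply, i12, suEmb_comp, ivE_trans]⟩
  rwa [h.eq_sup, ← key.eq_sup]

theorem rec3 {V0 V1 U0 U1 U2 : Subgroup G} {φ ψ : SU 3 F 3 →* G} (h0 : PhanHom V0 U0 U1 φ)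
    (h1 : PhanHom V1 U1 U2 ψ) (hc : ∀ x ∈ U0, ∀ y ∈ U2, x * y = y * x) (g : SU 4 F 3 →* G)
    (hg : g.range = V0 ⊔ V1) : ∃ g : SU 4 F 3 →* G,
      PhanHom V0 U0 U1 (g.comp (suEmb (ivE 3 0 (by norm_num)))) ∧
      PhanHom V1 U1 U2 (g.comp (suEmb (ivE 3 1 (by norm_num)))) := by
  have hker : ∀ z, g z = 1 → (∀ x, z * x = x * z) ∧ z ^ 4 = 1 := by
    rcases su_normal (N := 4) le_rfl g.ker with h | h
    · intro z hz
      obtain ⟨l, hl⟩ := h z hz
      exact ⟨scalar_comm hl, scalar_pow hl⟩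
    · exfalso
      obtain ⟨x, hx⟩ : φ (i01 suM1) ∈ g.range := by
        rw [hg, ← h0.range]; exact Subgroup.mem_sup_left ⟨_, rfl⟩
      rw [show g x = 1 from (h ▸ Subgroup.mem_top x : x ∈ g.ker)] at hx
      exact suM1_ne_one (i01_inj h0.ker (hx.symm.trans (map_one _).symm))
  have conj : ∀ (g : SU 4 F 3 →* G) (h : SU 4 F 3),
      (∀ z, g z = 1 → (∀ x, z * x = x * z) ∧ z ^ 4 = 1) →
      ∀ z, (g.comp (MulAut.conj h).toMonoidHom) z = 1 → (∀ x, z * x = x * z) ∧ z ^ 4 = 1 := by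
    intro g h hker z hz
    obtain ⟨a, b⟩ := hker _ hz
    exact ⟨fun x => (MulAut.conj h).injective (by rw [map_mul, map_mul]; exact a _),
      (MulAut.conj h).injective (by rw [map_pow, map_one]; exact b)⟩
  obtain ⟨h, e0, e2⟩ := rec3_ends h0 (i12_inj h1.ker) (by rwa [h1.right]) hker
    (hg ▸ le_sup_left) (by
      rw [hg, ← h1.range]; rintro _ ⟨x, rfl⟩; exact Subgroup.mem_sup_right ⟨_, rfl⟩)
  rw [h1.right] at e2
  obtain ⟨h', f0, f1, f2⟩ := rec3_mid h0 h1 (conj g h hker) (by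
    rw [MonoidHom.range_comp, MonoidHom.range_eq_top.2 (MulAut.conj h).surjective,
      ← MonoidHom.range_eq_map, hg]; exact le_sup_left) e0 e2
  have hk := fun z hz => (conj _ h' (conj g h hker) z hz).1
  exact ⟨_, phanHom_block h0 hk _ f0 f1, phanHom_block h1 hk _ f1 f2⟩

/-- Phan's theorem for weak Phan systems over the field with nine elements. -/
theorem phan_main3 {n : ℕ} (hn : 3 ≤ n) (U V : ℕ → Subgroup G)
    (hP : ∀ i, i + 2 ≤ n → ∃ φ : SU 3 F 3 →* G, PhanHom (V i) (U i) (U (i + 1)) φ)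
    (hc : ∀ i j, i + 2 ≤ j → j < n → ∀ x ∈ U i, ∀ y ∈ U j, x * y = y * x)
    (g : SU 4 F 3 →* G) (hg : g.range = V (n - 3) ⊔ V (n - 3 + 1)) :
    ∃ Φ : SU (n + 1) F 3 →* G, ∀ i, i + 2 ≤ n → V i ≤ Φ.range := by
  classical
  obtain ⟨r, rfl⟩ : ∃ r, n = r + 3 := ⟨n - 3, by omega⟩
  rw [Nat.add_sub_cancel] at hg
  obtain ⟨φ0, h0⟩ := hP r (by omega)
  obtain ⟨φ1, h1⟩ := hP (r + 1) (by omega)
  obtain ⟨γ, γ0, γ1⟩ := rec3 h0 h1 (hc r (r + 2) le_rfl (by omega)) g hg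
  have key : ∀ d m, m + d = r → ∃ φ : ℕ → (SU 3 F 3 →* G),
      (∀ i, m ≤ i → i ≤ r + 1 → PhanHom (V i) (U i) (U (i + 1)) (φ i)) ∧
      (∀ i, m ≤ i → i ≤ r → ∀ x, φ (i + 1) (i01 x) = φ i (i12 x)) ∧
      φ r = γ.comp (suEmb (ivE 3 0 (by norm_num))) ∧
      φ (r + 1) = γ.comp (suEmb (ivE 3 1 (by norm_num))) := by
    intro d
    induction d with
    | zero =>
      rintro m rfl
      refine ⟨fun i => if i = m then γ.comp (suEmb (ivE 3 0 (by norm_num))) else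
        γ.comp (suEmb (ivE 3 1 (by norm_num))), fun i hi hi' => ?_, fun i hi hi' x => ?_,
        by simp, by simp⟩
      · rcases (show i = m ∨ i = m + 1 by omega) with rfl | rfl
        · simpa using γ0
        · simpa using γ1
      · obtain rfl : i = m := by omega
        simp only [Nat.succ_ne_self, if_false, if_true, MonoidHom.comp_apply, i01, i12,
          suEmb_comp, ivE_trans]
    | succ d ih =>
      intro m hm
      obtain ⟨φ, a1, a2, a3, a4⟩ := ih (m + 1) (by omega)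
      obtain ⟨ψ, hψ⟩ := hP m (by omega)
      obtain ⟨ψ', h3, h4⟩ := phan_glue_left hψ (a1 (m + 1) le_rfl (by omega))
        (hc m (m + 2) le_rfl (by omega))
      refine ⟨Function.update φ m ψ', fun i hi hi' => ?_, fun i hi hi' x => ?_,
        by rwa [Function.update_of_ne (by omega)], by rwa [Function.update_of_ne (by omega)]⟩
      · by_cases e : i = m
        · subst e; rwa [Function.update_self]
        · rw [Function.update_of_ne e]; exact a1 i (by omega) hi'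
      · rw [Function.update_of_ne (show i + 1 ≠ m by omega)]
        by_cases e : i = m
        · subst e; rw [Function.update_self, h4]
        · rw [Function.update_of_ne e]; exact a2 i (by omega) hi' x
  obtain ⟨φ, h1, h2, h3, h4⟩ := key r 0 (by omega)
  let α : ℕ → SU (r + 3 + 1) F 3 → G := fun i g =>
    if h : i + 3 ≤ r + 3 + 1 then φ i (Function.invFun (suEmb (ivE 3 i h)) g) else 1
  have hα : ∀ i (h : i + 3 ≤ r + 3 + 1) x, α i (suEmb (ivE 3 i h) x) = φ i x := by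
    intro i h x
    simp only [α, dif_pos h]
    rw [Function.leftInverse_invFun (suEmb_injective _)]
  have hα0 : ∀ i (h : i + 3 ≤ r + 3 + 1) x, α i (suEmb (ivE 2 i (by omega)) x) =
      φ i (i01 x) := by
    intro i h x
    rw [← hα i h, i01, suEmb_comp, ivE_trans]; rfl
  have hα1 : ∀ i (h : i + 3 ≤ r + 3 + 1) x, α i (suEmb (ivE 2 (i + 1) (by omega)) x) =
      φ i (i12 x) := by
    intro i h x
    rw [← hα i h, i12, suEmb_comp, ivE_trans]
  have hr : r + 4 ≤ r + 3 + 1 := le_rfl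
  have hβ : ∀ x, γ (Function.invFun (suEmb (ivE 4 r hr)) (suEmb (ivE 4 r hr) x)) = γ x := by
    intro x
    rw [Function.leftInverse_invFun (suEmb_injective _)]
  obtain ⟨Φ, hΦ⟩ := u_amalgam_base (q := 3) le_rfl (N := r + 3 + 1) (by omega) α
    (fun g => γ (Function.invFun (suEmb (ivE 4 r hr)) g))
    (fun a ha b hb => by
      obtain ⟨x, rfl⟩ := (mem_uFix_Ico 4 r hr a).1 ha
      obtain ⟨y, rfl⟩ := (mem_uFix_Ico 4 r hr b).1 hb
      simp only
      rw [← map_mul, hβ, hβ, hβ, map_mul])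
    (fun i hi h a ha => by
      obtain ⟨x, rfl⟩ := (mem_uFix_Ico 3 i h a).1 ha
      rw [hα]
      rcases (show i = r ∨ i = r + 1 by omega) with rfl | rfl
      · rw [h3, MonoidHom.comp_apply, ← hβ (suEmb _ x), suEmb_comp, ivE_trans]; rfl
      · rw [h4, MonoidHom.comp_apply, ← hβ (suEmb _ x), suEmb_comp, ivE_trans])
    (fun i h a ha b hb => by
      obtain ⟨x, rfl⟩ := (mem_uFix_Ico 3 i h a).1 ha
      obtain ⟨y, rfl⟩ := (mem_uFix_Ico 3 i h b).1 hb
      rw [← map_mul, hα, hα, hα, map_mul])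
    (fun i h g hg => by
      obtain ⟨x, rfl⟩ := (mem_uFix_Ico 2 (i + 1) (by omega) g).1 hg
      rw [hα0 (i + 1) (by omega), hα1 i (by omega), h2 i (by omega) (by omega)])
    (fun i j hij hj a ha b hb => by
      obtain ⟨x, rfl⟩ := (mem_uFix_Ico 2 i (by omega) a).1 ha
      obtain ⟨y, rfl⟩ := (mem_uFix_Ico 2 (j + 1) (by omega) b).1 hb
      rw [hα0 i (by omega), hα1 j hj]
      refine (hc i (j + 1) (by omega) (by omega) _ ?_ _ ?_).symm
      · rw [← (h1 i (by omega) (by omega)).left]; exact ⟨x, rfl⟩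
      · rw [← (h1 j (by omega) (by omega)).right]; exact ⟨y, rfl⟩)
  refine ⟨Φ, fun i hi => ?_⟩
  rw [← (h1 i (by omega) (by omega)).range]
  rintro _ ⟨x, rfl⟩
  exact ⟨suEmb (ivE 3 i (by omega)) x, by
    rw [hΦ i (by omega) _ ((mem_uFix_Ico 3 i _ _).2 ⟨x, rfl⟩), hα]⟩

end Three

end Cfsg.Agent.Amalg
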